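import Cfsg.Agent.H851.Rl.PDefs
import Cfsg.Agent.H199.PslAut
import Cfsg.Agent.H124.LinCyc
import Cfsg.Agent.H548.Crit
import Cfsg.Agent.S2601
import Cfsg.Agent.S0280
import Cfsg.Agent.S0243

/-!
# S3691, row `PSL_n(q)`: bookkeeping (PSL-9, helper815)
-/

set_option autoImplicit false
open Cfsg Cfsg.Geo Matrix Cfsg.Agent.H454.Reg Cfsg.Agent.H851.Rl
open scoped MatrixGroups

namespace Cfsg.Agent.H815.Rl

universe u

open Cfsg.Agent.H304.PslT (pre pr toGL_injective range_toGL)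
open Cfsg.Agent.H199.PslAut (itGL iot iot_pr coe_itGL)

section card

variable {n : ℕ} {F : Type} [Field F]

theorem card_pre (M : Subgroup (Matrix.ProjectiveSpecialLinearGroup (Fin n) F)) :
    Nat.card (pre M) = Nat.card M * Nat.card (Subgroup.center (Matrix.SpecialLinearGroup (Fin n) F)) := by
  rw [pre, Subgroup.card_map_of_injective toGL_injective, mul_comm]
  exact QuotientGroup.card_preimage_mk (Subgroup.center (Matrix.SpecialLinearGroup (Fin n) F))
    (M : Set (Matrix.ProjectiveSpecialLinearGroup (Fin n) F))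

theorem card_sl : Nat.card (specialLinear (Fin n) F) =
    Nat.card (Matrix.ProjectiveSpecialLinearGroup (Fin n) F) *
      Nat.card (Subgroup.center (Matrix.SpecialLinearGroup (Fin n) F)) := by
  have h := card_pre (⊤ : Subgroup (Matrix.ProjectiveSpecialLinearGroup (Fin n) F))
  rw [pre, Subgroup.comap_top, ← MonoidHom.range_eq_map, range_toGL, Subgroup.card_top] at h
  exact h

theorem card_out [Fintype F] {p f : ℕ} [Fact p.Prime] (hf : 1 ≤ f) (hF : Fintype.card F = p ^ f) (hn : 3 ≤ n) :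
    Nat.card (Out (Matrix.ProjectiveSpecialLinearGroup (Fin n) F)) = Nat.gcd n (p ^ f - 1) * (2 * f) := by
  obtain ⟨φ, h1, -, h2⟩ := Cfsg.Agent.S2601.result hf hF hn
  have h3 := Subgroup.card_mul_index φ.ker
  rw [h2, Subgroup.index_ker, MonoidHom.range_eq_top.2 h1, Subgroup.card_top] at h3
  rw [← h3]
  congr 1
  have h4 : Nat.card (Multiplicative (ZMod f × ZMod 2)) = Nat.card (ZMod f × ZMod 2) :=
    Nat.card_congr Multiplicative.toAdd
  rw [h4, Nat.card_prod, Nat.card_zmod, Nat.card_zmod, mul_comm]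

/-- `pre` and inverse transpose -/
theorem pre_iot (M : Subgroup (Matrix.ProjectiveSpecialLinearGroup (Fin n) F)) :
    pre (M.map (iot n F).toMonoidHom) = (pre M).map itGL := by
  have hit : ∀ s : Matrix.SpecialLinearGroup (Fin n) F,
      Matrix.SpecialLinearGroup.toGL (Cfsg.Agent.ClassicalGeometry.AutPSL.Auto.itr s) =
        itGL (Matrix.SpecialLinearGroup.toGL s) := by
    intro s
    apply Units.ext
    rfl
  have hii : ∀ s : Matrix.SpecialLinearGroup (Fin n) F,
      Cfsg.Agent.ClassicalGeometry.AutPSL.Auto.itr (Cfsg.Agent.ClassicalGeometry.AutPSL.Auto.itr s) = s := by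
    intro s
    apply toGL_injective
    rw [hit, hit, Cfsg.Agent.H199.PslAut.itGL_itGL]
  ext g
  constructor
  · rintro ⟨s, ⟨m, hm, hms⟩, rfl⟩
    refine ⟨Matrix.SpecialLinearGroup.toGL (Cfsg.Agent.ClassicalGeometry.AutPSL.Auto.itr s),
      ⟨Cfsg.Agent.ClassicalGeometry.AutPSL.Auto.itr s, ?_, rfl⟩, ?_⟩
    · change pr n F (Cfsg.Agent.ClassicalGeometry.AutPSL.Auto.itr s) ∈ M
      have h1 : pr n F (Cfsg.Agent.ClassicalGeometry.AutPSL.Auto.itr s) = iot n F (pr n F s) := rfl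
      rw [h1, ← hms]
      obtain ⟨m', rfl⟩ := QuotientGroup.mk'_surjective _ m
      change iot n F (iot n F (pr n F m')) ∈ M
      have h2 : iot n F (iot n F (pr n F m')) = pr n F (Cfsg.Agent.ClassicalGeometry.AutPSL.Auto.itr
        (Cfsg.Agent.ClassicalGeometry.AutPSL.Auto.itr m')) := rfl
      rw [h2, hii]
      exact hm
    · rw [← hit, hii]
  · rintro ⟨_, ⟨s, hs, rfl⟩, rfl⟩
    refine ⟨Cfsg.Agent.ClassicalGeometry.AutPSL.Auto.itr s, ⟨pr n F s, hs, rfl⟩, hit s⟩

end card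

section

variable {G : Type u} [Group G] {T : Subgroup G} {n : ℕ} {F : Type} [Field F] [Fintype F]

omit [Fintype F] in
theorem card_pg (e : T ≃* Matrix.ProjectiveSpecialLinearGroup (Fin n) F) (X : Subgroup G) :
    Nat.card (pg e X) = Nat.card (X.subgroupOf T) *
      Nat.card (Subgroup.center (Matrix.SpecialLinearGroup (Fin n) F)) := by
  rw [pg, card_pre, Subgroup.card_map_of_injective e.injective]

theorem card_out_T {p f : ℕ} [Fact p.Prime] (hf : 1 ≤ f) (hF : Fintype.card F = p ^ f) (hn : 3 ≤ n)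
    (e : T ≃* Matrix.ProjectiveSpecialLinearGroup (Fin n) F) :
    Nat.card (Out T) = Nat.card (Subgroup.center (Matrix.SpecialLinearGroup (Fin n) F)) * (2 * f) := by
  rw [Cfsg.Agent.S0280.card_center_SL (by omega), hF, ← card_out hf hF hn,
    Cfsg.Agent.H548.Crit.card_out_congr e]

theorem one_le_of_card {p f : ℕ} (hF : Fintype.card F = p ^ f) : 1 ≤ f := by
  rcases Nat.eq_zero_or_pos f with rfl | h
  · have := Fintype.one_lt_card (α := F)
    rw [hF, pow_zero] at this
    omega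
  · exact h

/-- PSL-9a -/
theorem card_le_pg [Finite G] {X Y : Subgroup G} (h : Fac T X Y) (hn : 3 ≤ n)
    (e : T ≃* Matrix.ProjectiveSpecialLinearGroup (Fin n) F) {p f : ℕ} (hp : p.Prime) (hF : Fintype.card F = p ^ f) :
    Nat.card (specialLinear (Fin n) F) ≤ 2 * f * Nat.card (pg e X) * Nat.card (pg e Y) := by
  have := Fact.mk hp
  have hf := one_le_of_card hF
  obtain ⟨k, -, hk, hc⟩ := h.card0
  have hk' := Nat.le_of_dvd Nat.card_pos hk
  rw [card_out_T hf hF hn e] at hk'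
  rw [card_sl, card_pg, card_pg, ← Nat.card_congr e.toEquiv, ← hc]
  set d := Nat.card (Subgroup.center (Matrix.SpecialLinearGroup (Fin n) F))
  set a := Nat.card (X.subgroupOf T)
  set b := Nat.card (Y.subgroupOf T)
  calc a * b * k * d ≤ a * b * (d * (2 * f)) * d :=
        Nat.mul_le_mul_right _ (Nat.mul_le_mul_left _ hk')
    _ = 2 * f * (a * d) * (b * d) := by ring

theorem side_aux [Finite G] {X Y : Subgroup G} (h : Fac T X Y) {r v d m : ℕ} (hr : r.Prime)
    (hd : ¬ r ∣ d) (ho : Nat.card (Out T) = d * m) (hm : ¬ r ∣ m)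
    (hT : r ^ v ∣ Nat.card T) (hY : ¬ r ∣ Nat.card (Y.subgroupOf T)) :
    r ^ v ∣ Nat.card (X.subgroupOf T) * d ∧ ¬ r ∣ Nat.card (Y.subgroupOf T) * d := by
  obtain ⟨k, -, hk, hc⟩ := h.card0
  have hrk : ¬ r ∣ k := by
    intro h1
    have h2 := h1.trans hk
    rw [ho, hr.dvd_mul] at h2
    rcases h2 with h2 | h2
    · exact hd h2
    · exact hm h2
  refine ⟨?_, ?_⟩
  · rw [← hc] at hT
    have h1 : Nat.Coprime (r ^ v) k := Nat.Coprime.pow_left _ ((Nat.Prime.coprime_iff_not_dvd hr).2 hrk)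
    have h2 : Nat.Coprime (r ^ v) (Nat.card (Y.subgroupOf T)) :=
      Nat.Coprime.pow_left _ ((Nat.Prime.coprime_iff_not_dvd hr).2 hY)
    exact (h2.dvd_of_dvd_mul_right (h1.dvd_of_dvd_mul_right hT)).mul_right d
  · rw [hr.dvd_mul]
    rintro (h1 | h1)
    · exact hY h1
    · exact hd h1

/-- PSL-9b -/
theorem side [Finite G] {X Y : Subgroup G} (h : Fac T X Y) (hn : 3 ≤ n)
    (e : T ≃* Matrix.ProjectiveSpecialLinearGroup (Fin n) F) {p f k r : ℕ} (hp : p.Prime) (hF : Fintype.card F = p ^ f)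
    (hr : r.Prime) (hord : orderOf ((Fintype.card F : ℕ) : ZMod r) = k) (hk : n < 2 * k) (hkn : k ≤ n) (hrf : ¬ r ∣ 2 * f) :
    (r ^ (Fintype.card F ^ k - 1).factorization r ∣ Nat.card (pg e X) ∧ ¬ r ∣ Nat.card (pg e Y)) ∨
    (r ^ (Fintype.card F ^ k - 1).factorization r ∣ Nat.card (pg e Y) ∧ ¬ r ∣ Nat.card (pg e X)) := by
  have := Fact.mk hp
  have hrF := Fact.mk hr
  have hf := one_le_of_card hF
  have hq : 2 ≤ Fintype.card F := Fintype.one_lt_card
  set q := Fintype.card F with hqdef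
  have hiff : ∀ j, r ∣ q ^ j - 1 ↔ k ∣ j := by
    intro j
    have h1 : 1 ≤ q ^ j := Nat.one_le_pow _ _ (by omega)
    rw [← ZMod.natCast_eq_zero_iff, Nat.cast_sub h1, Nat.cast_one, Nat.cast_pow, sub_eq_zero, ← hord,
      orderOf_dvd_iff_pow_eq_one]
  have hr1 : ¬ r ∣ q - 1 := by
    intro h1
    have h2 := (hiff 1).1 (by rwa [pow_one])
    have h3 := Nat.le_of_dvd one_pos h2
    omega
  set d := Nat.card (Subgroup.center (Matrix.SpecialLinearGroup (Fin n) F)) with hd
  have hdq : d = Nat.gcd n (q - 1) := Cfsg.Agent.S0280.card_center_SL (by omega)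
  have hrd : ¬ r ∣ d := by
    rw [hdq]
    intro h1
    exact hr1 (h1.trans (Nat.gcd_dvd_right _ _))
  have ho : Nat.card (Out T) = d * (2 * f) := card_out_T hf hF hn e
  have hro : ¬ r ∣ Nat.card (Out T) := by
    rw [ho, hr.dvd_mul]
    rintro (h1 | h1)
    · exact hrd h1
    · exact hrf h1
  set v := (q ^ k - 1).factorization r with hv
  -- the full part divides `|T|`
  have hT : r ^ v ∣ Nat.card T := by
    have h1 := S0243.result (F := F) (q := q) hqdef.symm n (by omega)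
    have h2 : r ^ v ∣ ∏ i : Fin n, (q ^ n - q ^ (i : ℕ)) := by
      refine Dvd.dvd.trans ?_ (Finset.dvd_prod_of_mem _ (Finset.mem_univ (⟨n - k, by omega⟩ : Fin n)))
      have h3 : q ^ n - q ^ (n - k) = q ^ (n - k) * (q ^ k - 1) := by
        rw [Nat.mul_sub, mul_one, ← pow_add]
        congr 2
        omega
      show r ^ v ∣ q ^ n - q ^ (n - k)
      rw [h3]
      exact (Nat.ordProj_dvd _ _).mul_left _
    rw [← h1] at h2
    have h4 : Nat.Coprime (r ^ v) (Nat.gcd n (q - 1)) := by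
      rw [← hdq]
      exact Nat.Coprime.pow_left _ ((Nat.Prime.coprime_iff_not_dvd hr).2 hrd)
    have h5 : Nat.Coprime (r ^ v) (q - 1) :=
      Nat.Coprime.pow_left _ ((Nat.Prime.coprime_iff_not_dvd hr).2 hr1)
    rw [Nat.card_congr e.toEquiv]
    exact h5.dvd_of_dvd_mul_left (h4.dvd_of_dvd_mul_left h2)
  have hrT : r ∣ Nat.card T := by
    refine dvd_trans ?_ hT
    have h1 : r ∣ q ^ k - 1 := (hiff k).2 dvd_rfl
    have h2 : q ^ k - 1 ≠ 0 := by
      have : q ^ 1 ≤ q ^ k := Nat.pow_le_pow_right (by omega) (by omega)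
      rw [pow_one] at this
      omega
    have h3 : 0 < v := hr.factorization_pos_of_dvd h2 h1
    exact dvd_pow_self r h3.ne'
  have hr2 : r ≠ 2 := by
    rintro rfl
    exact hrf (dvd_mul_right 2 f)
  have hcyc : ∀ P : Subgroup T, IsPGroup r P → IsCyclic P := by
    intro P hP
    obtain ⟨S, hS⟩ := hP.exists_le_sylow
    have h1 : IsCyclic S := Cfsg.Agent.H124.LinCyc.isCyclic_sylow_of_gl (F := F) (ι := Fin n) hr2
      (show 0 < k by omega) hiff (by rw [Fintype.card_fin]; exact hk)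
      (Matrix.SpecialLinearGroup.toGL (n := Fin n) (R := F)) toGL_injective
      (e.symm.toMonoidHom.comp (pr n F)) (e.symm.surjective.comp (QuotientGroup.mk'_surjective _)) S
    exact isCyclic_of_injective (Subgroup.inclusion hS) (Subgroup.inclusion_injective hS)
  rw [card_pg, card_pg]
  rcases h.prime_dvd hr hrT hro with h1 | h1
  · left
    exact side_aux h hr hrd ho hrf hT fun h2 => h.not_both hr hcyc h1 h2
  · right
    exact side_aux h.symm hr hrd ho hrf hT fun h2 => h.not_both hr hcyc h2 h1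

/-- PSL-9c: the contragredient identification -/
theorem twist (_hn : 3 ≤ n) (e : T ≃* Matrix.ProjectiveSpecialLinearGroup (Fin n) F) :
    ∃ e' : T ≃* Matrix.ProjectiveSpecialLinearGroup (Fin n) F, ∀ X : Subgroup G,
      pg e' X = (pg e X).map Cfsg.Agent.H199.PslAut.itGL := by
  refine ⟨e.trans (iot n F), fun X => ?_⟩
  rw [pg, pg, ← pre_iot, Subgroup.map_map]
  rfl

end

section
variable {n : ℕ} {F : Type} [Field F] [Fintype F]

omit [Fintype F] in
/-- PSL-9d -/
theorem dual_fix {R : Subgroup (GL (Fin n) F)} {W : Submodule F (Fin n → F)} (hW : Module.finrank F W + 1 = n)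
    (hR : R ≤ subspaceStabilizer W) : ∃ v : Fin n → F, v ≠ 0 ∧
      ∀ x ∈ R.map Cfsg.Agent.H199.PslAut.itGL, ∃ c : F, (x : Matrix (Fin n) (Fin n) F) *ᵥ v = c • v := by
  have hlt : W < ⊤ := by
    rw [lt_top_iff_ne_top]
    rintro rfl
    rw [finrank_top, Module.finrank_fin_fun] at hW
    omega
  obtain ⟨φ, hφ0, hφ⟩ := Submodule.exists_le_ker_of_lt_top W hlt
  have hker : W = LinearMap.ker φ := by
    apply Submodule.eq_of_le_of_finrank_le hφ
    have h1 := LinearMap.finrank_range_add_finrank_ker φ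
    have h2 : 0 < Module.finrank F (LinearMap.range φ) := by
      rw [Module.finrank_pos_iff, Submodule.nontrivial_iff_ne_bot, Ne, LinearMap.range_eq_bot]
      exact hφ0
    rw [Module.finrank_fin_fun] at h1
    omega
  set v : Fin n → F := fun i => φ (Pi.single i 1) with hv
  have hvφ : ∀ w : Fin n → F, v ⬝ᵥ w = φ w := by
    intro w
    conv_rhs => rw [LinearMap.pi_apply_eq_sum_univ φ w]
    rw [dotProduct]
    refine Finset.sum_congr rfl fun i _ => ?_
    have h1 : (Pi.single i (1 : F) : Fin n → F) = fun j => if i = j then 1 else 0 := by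
      funext j
      simp [Pi.single_apply, eq_comm]
    rw [hv, smul_eq_mul, mul_comm, ← h1]
  obtain ⟨u, hu⟩ : ∃ u, φ u ≠ 0 := by
    by_contra hcon
    push Not at hcon
    exact hφ0 (LinearMap.ext hcon)
  refine ⟨v, ?_, ?_⟩
  · intro h0
    apply hu
    rw [← hvφ, h0, zero_dotProduct]
  rintro _ ⟨g, hg, rfl⟩
  have hgW : ∀ w ∈ W, ((g⁻¹ : GL (Fin n) F) : Matrix (Fin n) (Fin n) F) *ᵥ w ∈ W := by
    intro w hw
    have h1 : g⁻¹ ∈ subspaceStabilizer W := Subgroup.inv_mem _ (hR hg)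
    exact (h1 w).1 hw
  have hc : ∀ w : Fin n → F, φ (((g⁻¹ : GL (Fin n) F) : Matrix (Fin n) (Fin n) F) *ᵥ w) =
      (φ (((g⁻¹ : GL (Fin n) F) : Matrix (Fin n) (Fin n) F) *ᵥ u) / φ u) * φ w := by
    intro w
    have h1 : w - (φ w / φ u) • u ∈ W := by
      rw [hker, LinearMap.mem_ker, map_sub, map_smul, smul_eq_mul, div_mul_cancel₀ _ hu, sub_self]
    have h2 := hgW _ h1
    rw [hker, LinearMap.mem_ker, mulVec_sub, mulVec_smul, map_sub, map_smul, smul_eq_mul, sub_eq_zero] at h2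
    rw [h2]
    field_simp
  refine ⟨φ (((g⁻¹ : GL (Fin n) F) : Matrix (Fin n) (Fin n) F) *ᵥ u) / φ u, ?_⟩
  ext i
  have h3 : ((itGL g : GL (Fin n) F) : Matrix (Fin n) (Fin n) F) *ᵥ v ⬝ᵥ Pi.single i 1 =
      v ⬝ᵥ (((g⁻¹ : GL (Fin n) F) : Matrix (Fin n) (Fin n) F) *ᵥ Pi.single i 1) := by
    rw [coe_itGL, mulVec_transpose, ← dotProduct_mulVec]
  rw [dotProduct_single_one] at h3
  rw [h3, hvφ, hc, Pi.smul_apply, smul_eq_mul]

end

end Cfsg.Agent.H815.Rl
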